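import Cfsg.Agent.H295.War.Eng
import Cfsg.Agent.H295.War.Witt
import Cfsg.Agent.H434.OreBridge
import Cfsg.Agent.H434.CornMain
import Cfsg.Agent.H130.War.Base

/-!
# From isometries to `POmega` (helper295; S2453 L5/L6)

`Cond r e Q` : the nonscalar elements of `[O Q, O Q]` are products of two `e`-th powers of elements of order prime
to `r`. `ss_of_cond` : `SS r e (POmega F Q)`. `cond_of_gp` : the condition from the engine.
-/

set_option autoImplicit false

namespace Cfsg.Agent.H295.War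

open QuadraticMap Cfsg.Agent.LieClassical.OrthCore Cfsg.Agent.LieClassical.OrthTrans
  Cfsg.Agent.LieClassical.OrthFinite Cfsg.Agent.LieClassical.OrthForms Matrix Cfsg.Agent.H140.OreO Polynomial Module
  Cfsg.Agent.H434.OreBridge
open Cfsg.Agent.H130.War (SS)

/-- the row for isometries -/
def Cond {F V : Type*} [Field F] [AddCommGroup V] [Module F V] (r e : ℕ) (Q : QuadraticForm F V) : Prop :=
  ∀ g ∈ Om Q, (∀ c : F, ∃ v, g v ≠ c • v) →
    ∃ x ∈ Om Q, ∃ y ∈ Om Q, g = x ^ e * y ^ e ∧ (orderOf x).Coprime r ∧ (orderOf y).Coprime r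

section
variable {ι : Type} [Fintype ι] [DecidableEq ι] {F : Type*} [Field F]

theorem ss_of_cond (Q : QuadraticForm F (ι → F)) {r e : ℕ} (h : Cond r e Q) : SS r e (Cfsg.POmega F ⇑Q) := by
  have key : ∀ g : Cfsg.Omega F ⇑Q, ∃ s : Cfsg.Omega F ⇑Q,
      (QuotientGroup.mk s : Cfsg.POmega F ⇑Q) = QuotientGroup.mk g ∧
      ∃ x y : Cfsg.Omega F ⇑Q, s = x ^ e * y ^ e ∧ (orderOf x).Coprime r ∧ (orderOf y).Coprime r := by
    intro g
    by_cases hs : ∀ c : F, ∃ v, (omegaEquiv Q g : (ι → F) ≃ₗ[F] (ι → F)) v ≠ c • v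
    · obtain ⟨x, hx, y, hy, hxy, ox, oy⟩ := h _ (omegaEquiv Q g).2 hs
      have horder : ∀ (z : (ι → F) ≃ₗ[F] (ι → F)) (hz : z ∈ ⁅O Q, O Q⁆),
          orderOf ((omegaEquiv Q).symm ⟨z, hz⟩) = orderOf z := fun z hz => by
        rw [← Subgroup.orderOf_coe]
        exact (orderOf_injective (Subgroup.subtype _ |>.comp (omegaEquiv Q).symm.toMonoidHom)
          ((Subgroup.subtype_injective _).comp (omegaEquiv Q).symm.injective) ⟨z, hz⟩).trans
          (Subgroup.orderOf_mk z hz)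
      refine ⟨g, rfl, (omegaEquiv Q).symm ⟨x, hx⟩, (omegaEquiv Q).symm ⟨y, hy⟩, ?_, ?_, ?_⟩
      · apply (omegaEquiv Q).injective
        rw [map_mul, map_pow, map_pow, MulEquiv.apply_symm_apply, MulEquiv.apply_symm_apply]
        exact Subtype.ext hxy
      · rw [horder]; exact ox
      · rw [horder]; exact oy
    · push Not at hs
      obtain ⟨c, hc⟩ := hs
      have hcen : g ∈ Subgroup.center (Cfsg.Omega F ⇑Q) := by
        rw [Subgroup.mem_center_iff]
        intro k
        apply (omegaEquiv Q).injective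
        rw [map_mul, map_mul]
        apply Subtype.ext
        apply LinearEquiv.ext
        intro v
        show (omegaEquiv Q k : (ι → F) ≃ₗ[F] (ι → F)) ((omegaEquiv Q g : (ι → F) ≃ₗ[F] (ι → F)) v) =
          (omegaEquiv Q g : (ι → F) ≃ₗ[F] (ι → F)) ((omegaEquiv Q k : (ι → F) ≃ₗ[F] (ι → F)) v)
        rw [hc, hc, map_smul]
      refine ⟨1, ?_, 1, 1, by simp, by simp, by simp⟩
      rw [QuotientGroup.mk_one]
      exact ((QuotientGroup.eq_one_iff g).2 hcen).symm
  refine SS.of_lift (f := QuotientGroup.mk' (Subgroup.center (Cfsg.Omega F ⇑Q))) fun t => ?_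
  obtain ⟨g, rfl⟩ := QuotientGroup.mk'_surjective _ t
  obtain ⟨s, hs, x, y, h1, h2, h3⟩ := key g
  exact ⟨s, hs, x, y, h1, h2, h3⟩

theorem ss_odd [Fintype F] (m : ℕ) {r e : ℕ} (h : Cond r e (oddForm m F)) :
    SS r e (Cfsg.POmega F (Cfsg.quadFormOdd m F)) := by
  have h5 := ss_of_cond (oddForm m F) h
  rwa [coe_oddForm] at h5

theorem ss_plus [Fintype F] (m : ℕ) {r e : ℕ} (h : Cond r e (plusForm m F)) :
    SS r e (Cfsg.POmega F (Cfsg.quadFormPlus m F)) := by
  have h5 := ss_of_cond (plusForm m F) h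
  rwa [coe_plusForm] at h5

theorem ss_minus [Fintype F] (m : ℕ) (a b : F) {r e : ℕ} (h : Cond r e (minusForm m F a b)) :
    SS r e (Cfsg.POmega F (Cfsg.quadFormMinus m F a b)) := by
  have h5 := ss_of_cond (minusForm m F a b) h
  rwa [coe_minusForm] at h5

end

/-- the condition from the engine -/
theorem cond_of_gp {F V : Type*} [Field F] [AddCommGroup V] [Module F V] [Finite F] [FiniteDimensional F V]
    {Q : QuadraticForm F V} (hQ : Nondeg Q) {m : ℕ} (hm : 3 ≤ m) (hV : finrank F V + 1 ≤ 3 * m)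
    (hW : ∀ W, H434.Corn.MaxTS Q W → finrank F W = m) (hRK : RK F m (finrank F V - 2 * m)) {r e : ℕ} (he : 1 ≤ e)
    {p f : F[X]} (hp : GP r e m p) (hf : GP r e (m - 1) f) : Cond r e Q := by
  intro g hg hs
  exact row hQ hm hV hRK (H434.Corn.mem_E_O hg) (H434.Corn.baseCorner hQ hg hs hm hW) he hp hf

end Cfsg.Agent.H295.War
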