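import Cfsg.Agent.H295.War.Bridge
import Cfsg.Agent.H295.War.EngN
import Cfsg.Agent.H950.War.ERow

/-!
# S2453, the orthogonal rows (helper295)

`kl_pomega_odd`, `kl_pomega_plus`, `kl_pomega_minus`.
-/

set_option autoImplicit false

namespace Cfsg.Agent.H295.War

open QuadraticMap Cfsg.Agent.LieClassical.OrthCore Cfsg.Agent.LieClassical.OrthTrans
  Cfsg.Agent.LieClassical.OrthFinite Cfsg.Agent.LieClassical.OrthForms Matrix Cfsg.Agent.H140.OreO Polynomial Module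
open Cfsg.Agent.H130.War (SS RKN ee)
open Cfsg.Agent.H134.War (KL)
open Cfsg

/-- the condition from the engine -/
theorem cond_of_gpN {F V : Type*} [Field F] [AddCommGroup V] [Module F V] [Finite F] [FiniteDimensional F V]
    {Q : QuadraticForm F V} (hQ : Nondeg Q) {m : ℕ} (hm : 4 ≤ m) (hV : finrank F V ≤ 2 * m + 2)
    (hW : ∀ W, H434.Corn.MaxTS Q W → finrank F W = m) {r e : ℕ} (he : 1 ≤ e)
    {p f : F[X]} (hp : GP r e m p) (hf : GP r e (m - 1) f) : Cond r e Q := by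
  intro g hg hs
  exact rowN hQ (by omega) (by omega) (H130.War.rkn hm (by omega)) (H434.Corn.mem_E_O hg)
    (H434.Corn.baseCorner hQ hg hs (by omega) hW) he hp hf

theorem cond_of_EB {F V : Type*} [Field F] [AddCommGroup V] [Module F V] [Finite F] [FiniteDimensional F V]
    {Q : QuadraticForm F V} (hQ : Nondeg Q) {m : ℕ} (hm : 3 ≤ m)
    (hW : ∀ W, H434.Corn.MaxTS Q W → finrank F W = m) {r e : ℕ} (h : H950.War.EB.Cond Q r e m) : Cond r e Q := by
  intro g hg hs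
  exact h g (H434.Corn.mem_E_O hg) (H434.Corn.baseCorner hQ hg hs hm hW)

variable {F : Type} [Field F] [Fintype F] {m p k l : ℕ}

theorem ee_pos (hk : 2 ≤ k) (hl : 2 ≤ l) : 1 ≤ ee p k l :=
  Nat.ordCompl_pos p (Nat.lcm_ne_zero (by omega) (by omega))

/-- **PΩ_{2m+1}(q)**, `q` odd -/
theorem kl_pomega_odd (hm : 3 ≤ m) (ho : Odd (Fintype.card F)) (hp : p.Prime) [CharP F p] (hk : 2 ≤ k) (hl : 2 ≤ l)
    (hg : ¬ k.Coprime l) (hd : p ∣ k ∨ p ∣ l)
    (hbig : (max k l) ^ (8 * (max k l) ^ 2) ≤ Nat.card (POmega F (quadFormOdd m F))) :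
    KL (POmega F (quadFormOdd m F)) k l := by
  have : Fact p.Prime := ⟨hp⟩
  have h2 : (2 : F) ≠ 0 := by
    apply Ring.two_ne_zero
    intro h
    have h1 := FiniteField.even_card_of_char_two h
    rw [Nat.odd_iff] at ho
    omega
  apply SS.kl' (p := p)
  apply ss_odd
  have hQ := nondeg_oddForm m F h2
  rcases Nat.lt_or_ge 3 m with h | h
  · obtain ⟨P, hP⟩ := H544.War.gp_odd ho hm hk hl hg hd hbig (Or.inl rfl)
    obtain ⟨f, hf⟩ := H544.War.gp_odd ho hm hk hl hg hd hbig (Or.inr ⟨by omega, rfl⟩)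
    refine cond_of_gpN hQ (by omega) ?_ (witt_odd m) (ee_pos hk hl) hP hf
    rw [Module.finrank_fintype_fun_eq_card]
    simp
    omega
  · obtain rfl : m = 3 := by omega
    exact cond_of_EB hQ le_rfl (witt_odd 3) (H950.War.EB.cond_odd_three ho hk hl hg hd hbig)

/-- **PΩ⁺_{2m}(q)** -/
theorem kl_pomega_plus (hm : 4 ≤ m) (hp : p.Prime) [CharP F p] (hk : 2 ≤ k) (hl : 2 ≤ l)
    (hg : ¬ k.Coprime l) (hd : p ∣ k ∨ p ∣ l)
    (hbig : (max k l) ^ (8 * (max k l) ^ 2) ≤ Nat.card (POmega F (quadFormPlus m F))) :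
    KL (POmega F (quadFormPlus m F)) k l := by
  have : Fact p.Prime := ⟨hp⟩
  apply SS.kl' (p := p)
  apply ss_plus
  obtain ⟨P, hP⟩ := H544.War.gp_plus hm hk hl hg hd hbig (Or.inl rfl)
  obtain ⟨f, hf⟩ := H544.War.gp_plus hm hk hl hg hd hbig (Or.inr rfl)
  refine cond_of_gpN (nondeg_plusForm m F) hm ?_ (witt_plus m) (ee_pos hk hl) hP hf
  rw [Module.finrank_fintype_fun_eq_card]
  simp
  omega

/-- the form with Witt index `m` -/
theorem kl_pomega_minus' (hm : 3 ≤ m) {a b : F}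
    (hab : ∀ z₁ z₂ : F, z₁ ^ 2 + a * z₁ * z₂ + b * z₂ ^ 2 = 0 → z₁ = 0 ∧ z₂ = 0)
    (hp : p.Prime) [CharP F p] (hk : 2 ≤ k) (hl : 2 ≤ l)
    (hg : ¬ k.Coprime l) (hd : p ∣ k ∨ p ∣ l)
    (hbig : (max k l) ^ (8 * (max k l) ^ 2) ≤ Nat.card (POmega F (quadFormMinus m F a b))) :
    KL (POmega F (quadFormMinus m F a b)) k l := by
  have : Fact p.Prime := ⟨hp⟩
  apply SS.kl' (p := p)
  apply ss_minus
  have hQ := nondeg_minusForm m F a b hab
  rcases Nat.lt_or_ge 3 m with h | h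
  · obtain ⟨P, hP⟩ := H544.War.gp_minus hm hab hk hl hg hd hbig (Or.inl rfl)
    obtain ⟨f, hf⟩ := H544.War.gp_minus hm hab hk hl hg hd hbig (Or.inr ⟨by omega, rfl⟩)
    refine cond_of_gpN hQ (by omega) ?_ (witt_minus m a b hab) (ee_pos hk hl) hP hf
    rw [Module.finrank_fintype_fun_eq_card]
    simp
    omega
  · obtain rfl : m = 3 := by omega
    exact cond_of_EB hQ le_rfl (witt_minus 3 a b hab) (H950.War.EB.cond_minus_three hab hk hl hg hd hbig)

/-- **PΩ⁻_{2m}(q)** -/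
theorem kl_pomega_minus (hm : 4 ≤ m) {a b : F}
    (hab : ∀ z₁ z₂ : F, z₁ ^ 2 + a * z₁ * z₂ + b * z₂ ^ 2 = 0 → z₁ = 0 ∧ z₂ = 0)
    (hp : p.Prime) [CharP F p] (hk : 2 ≤ k) (hl : 2 ≤ l)
    (hg : ¬ k.Coprime l) (hd : p ∣ k ∨ p ∣ l)
    (hbig : (max k l) ^ (8 * (max k l) ^ 2) ≤ Nat.card (POmega F (quadFormMinus (m - 1) F a b))) :
    KL (POmega F (quadFormMinus (m - 1) F a b)) k l :=
  kl_pomega_minus' (by omega) hab hp hk hl hg hd hbig

end Cfsg.Agent.H295.War
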